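import Mathlib
import Cfsg.Agent.Lib.Hay.Norm
import Cfsg.Agent.S0058

/-! Automorphisms of `q^{1+2} : SL₂(q)` and the normaliser of the centre. -/

set_option autoImplicit false

namespace H62.Hay

open Subgroup Cm

variable {F : Type*} [Field F]

/-- The symplectic form. -/
def om (v v' : F × F) : F := v.1 * v'.2 - v.2 * v'.1
/-- The linear action. -/
def act (k : Cm F) (v : F × F) : F × F := (k.a * v.1 + k.b * v.2, k.c * v.1 + k.d * v.2)

namespace Cm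

/-- An element of order four of `SL₂`. -/
def ci : Cm F := ⟨0, 0, 0, 0, -1, 1, 0, by ring⟩

theorem normal_le_Qs [Finite F] {p : ℕ} [Fact p.Prime] [CharP F p] {N : Subgroup (Cm F)}
    [hN : N.Normal] (hp : IsPGroup p N) : N ≤ Qs F := fun k hk => by
  have h := hp.le_sylow_of_normal (syl F p)
  have h1 : k ∈ Ps F := h hk
  have h2 : ci * k * ci⁻¹ ∈ Ps F := h (hN.conj_mem k hk ci)
  have := h2.2.1
  simp [ci] at this
  exact ⟨h1.1, this, h1.2⟩

instance normal_Qs : (Qs F).Normal := ⟨fun k hk g => by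
  obtain ⟨h1, h2, h3, h4⟩ := hk
  have := g.det
  refine ⟨?_, ?_, ?_, ?_⟩ <;> simp [*] <;> first | ring1 | linear_combination this⟩

theorem cq_mem (z u w : F) : cq z u w ∈ Qs F := mem_Qs'.2 ⟨z, u, w, rfl⟩

variable (F) in
/-- The centraliser of `ct` in the Sylow subgroup. -/
def As : Subgroup (Cm F) where
  carrier := {g | g.u = 0 ∧ g ∈ Ms F}
  one_mem' := ⟨rfl, one_mem _⟩
  mul_mem' := by
    rintro g h ⟨h1, h2⟩ ⟨k1, k2⟩
    exact ⟨by simp [h1, k1, k2.1], mul_mem h2 k2⟩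
  inv_mem' := by
    rintro g ⟨h1, h2⟩
    exact ⟨by simp [h1, h2.1], inv_mem h2⟩

variable (F) in
/-- The root subgroup of `SL₂`. -/
def Xs : Subgroup (Cm F) where
  carrier := {g | g.z = 0 ∧ g ∈ As F}
  one_mem' := ⟨rfl, one_mem _⟩
  mul_mem' := by
    rintro g h ⟨h1, h2⟩ ⟨k1, k2⟩
    exact ⟨by simp [h1, k1, h2.1, h2.2.1], mul_mem h2 k2⟩
  inv_mem' := by
    rintro g ⟨h1, h2⟩
    exact ⟨by simp [h1], inv_mem h2⟩

theorem mem_As' {g : Cm F} : g ∈ As F ↔ ∃ a c, g = cm a 0 c :=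
  ⟨fun ⟨h, h1, h2, h3, h4⟩ => ⟨g.z, g.b, by ext <;> simp [cm, *]⟩,
    by rintro ⟨a, c, rfl⟩; exact ⟨rfl, cm_mem ..⟩⟩
theorem mem_Xs' {g : Cm F} : g ∈ Xs F ↔ ∃ c, g = cm 0 0 c :=
  ⟨fun ⟨h0, h, h1, h2, h3, h4⟩ => ⟨g.b, by ext <;> simp [cm, *]⟩,
    by rintro ⟨c, rfl⟩; exact ⟨rfl, rfl, cm_mem ..⟩⟩
theorem As_le_Ms : As F ≤ Ms F := fun _ h => h.2
theorem Xs_le_As : Xs F ≤ As F := fun _ h => h.2
theorem Zs_le_As : Zs F ≤ As F := fun _ h => ⟨h.1, Zs_le_Ms h⟩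

theorem comm_ct (h2 : (2 : F) ≠ 0) {k : Cm F} : k * ct = ct * k ↔ k.u = 0 ∧ k.w = 0 := by
  constructor
  · intro h
    have e1 := congrArg Cm.u h
    have e2 := congrArg Cm.w h
    simp [ct] at e1 e2
    exact ⟨mul_left_cancel₀ h2 (by linear_combination e1),
      mul_left_cancel₀ h2 (by linear_combination e2)⟩
  · rintro ⟨h1, h3⟩
    ext <;> simp [ct, h1, h3]

theorem ct_ne_one (h2 : (2 : F) ≠ 0) : (ct : Cm F) ≠ 1 := fun h => by
  have := congrArg Cm.a h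
  simp [ct] at this
  exact h2 (by linear_combination -this)

theorem comm_x {k : Cm F} {z c : F} (hc : c ≠ 0) (h : k * cm z 0 c = cm z 0 c * k) :
    k ∈ Ms F ∨ k * ct ∈ Ms F := by
  have e1 := congrArg Cm.u h
  have e2 := congrArg Cm.a h
  have e3 := congrArg Cm.b h
  have := k.det
  simp [cm, hc] at e1 e2 e3
  have had : k.a = k.d := mul_left_cancel₀ hc (by linear_combination e3)
  rw [e2, ← had] at this
  have h5 : (k.a - 1) * (k.a + 1) = 0 := by linear_combination this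
  rcases mul_eq_zero.1 h5 with h | h
  · have h : k.a = 1 := by linear_combination h
    exact Or.inl ⟨e1, h, e2, had ▸ h⟩
  · have h : k.a = -1 := by linear_combination h
    right
    refine ⟨?_, ?_, ?_, ?_⟩ <;> simp [ct, e1, e2, ← had, h]

theorem comm_x_ct (h2 : (2 : F) ≠ 0) {k : Cm F} {z c : F} (hc : c ≠ 0)
    (h : k * cm z 0 c = cm z 0 c * k) (h' : k * ct = ct * k) : k ∈ As F ∨ k * ct ∈ As F := by
  obtain ⟨h1, -⟩ := (comm_ct h2).1 h'
  rcases comm_x hc h with h | h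
  · exact Or.inl ⟨h1, h⟩
  · exact Or.inr ⟨by simp [ct, h1], h⟩

theorem invol (h2 : (2 : F) ≠ 0) {k : Cm F} (h : k * ct = ct * k) (h' : k * k = 1) :
    k = 1 ∨ k = ct := by
  obtain ⟨h1, h3⟩ := (comm_ct h2).1 h
  have e0 := congrArg Cm.z h'
  have e1 := congrArg Cm.a h'
  have e2 := congrArg Cm.b h'
  have e3 := congrArg Cm.c h'
  have e4 := congrArg Cm.d h'
  have := k.det
  simp [h1, h3] at e0 e1 e2 e3 e4
  have hz : k.z = 0 := mul_left_cancel₀ h2 (by linear_combination e0)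
  have ht : k.a + k.d ≠ 0 := fun ht => h2 (by linear_combination -e1 + k.a * ht - this)
  have hb : k.b = 0 := mul_left_cancel₀ ht (by linear_combination e2)
  have hc : k.c = 0 := mul_left_cancel₀ ht (by linear_combination e3)
  have had : k.d = k.a := mul_left_cancel₀ ht (by linear_combination e4 - e1)
  rw [hb] at e1
  have h5 : (k.a - 1) * (k.a + 1) = 0 := by linear_combination e1
  rcases mul_eq_zero.1 h5 with h | h
  · have h : k.a = 1 := by linear_combination h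
    left; ext <;> simp [*]
  · have h : k.a = -1 := by linear_combination h
    right; ext <;> simp [ct, *]

theorem conj_Ws {k : Cm F} (hk : k ∈ Qs F) : ∃ g : Cm F, g * k * g⁻¹ ∈ Ms F := by
  obtain ⟨z, u, w, rfl⟩ := mem_Qs'.1 hk
  by_cases hw : w = 0
  · exact ⟨1, by simp [mem_Ms, cq, hw]⟩
  · refine ⟨⟨0, 0, 0, 0, w⁻¹, -w, u, by field_simp; ring⟩, ?_, ?_, ?_, ?_⟩ <;> simp [cq, hw] <;>
      ring

theorem cent_Qs (h2 : (2 : F) ≠ 0) {k : Cm F} (h : ∀ q ∈ Qs F, k * q = q * k) : k ∈ Zs F := by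
  have e1 := h _ (cq_mem 0 1 0)
  have e2 := h _ (cq_mem 0 0 1)
  have f1 := congrArg Cm.u e1
  have f2 := congrArg Cm.w e1
  have f3 := congrArg Cm.u e2
  have f4 := congrArg Cm.w e2
  have f5 := congrArg Cm.z e1
  have f6 := congrArg Cm.z e2
  simp [cq] at f1 f2 f3 f4 f5 f6
  have ha : k.a = 1 := by linear_combination f1
  have hd : k.d = 1 := by linear_combination f4
  rw [ha, f2] at f5
  rw [hd, f3] at f6
  exact ⟨mul_left_cancel₀ h2 (by linear_combination f6),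
    mul_left_cancel₀ h2 (by linear_combination -f5), ha, f3, f2, hd⟩

theorem Ms_pow {p : ℕ} [CharP F p] {k : Cm F} (hk : k ∈ Ms F) : k ^ p = 1 := by
  obtain ⟨a, b, c, rfl⟩ := mem_Ms'.1 hk
  rw [cm_pow, CharP.cast_eq_zero]; simp [cm_zero]

theorem Ms_ct_sq {k : Cm F} (hk : k * ct ∈ Ms F) : k * k ∈ As F := by
  obtain ⟨a, b, c, e⟩ := mem_Ms'.1 hk
  rw [← eq_mul_inv_iff_mul_eq, ct_inv] at e
  rw [e]
  exact mem_As'.2 ⟨a + a, c + c, by ext <;> simp [cm, ct]⟩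

theorem cube_Qs [CharP F 3] {k : Cm F} (hk : k ∈ Ps F) (hk' : k ∉ Ms F) (h : k ^ 3 = 1) :
    k ∈ Qs F := by
  have hw : k.w ≠ 0 := fun e => hk' ⟨e, hk⟩
  obtain ⟨h1, h2, h3⟩ := hk
  have e := congrArg Cm.z h
  have three : (3 : F) = 0 := by exact_mod_cast CharP.cast_eq_zero F 3
  simp [pow_succ, h1, h2, h3] at e
  exact ⟨h1, mul_right_cancel₀ (pow_ne_zero 2 hw) (by
    linear_combination -e + (k.z - k.b * k.w ^ 2) * three), h2, h3⟩

end Cm

/-- The data of an automorphism on the centre and on the Frattini quotient of `Q`. -/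
structure AD (α : Cm F ≃* Cm F) (τ : F →+ F) (σ : F × F →+ F × F) : Prop where
  hz : ∀ a, α (cz a) = cz (τ a)
  hq : ∀ q ∈ Qs F, α q ∈ Qs F ∧ ((α q).u, (α q).w) = σ (q.u, q.w)
  hω : ∀ v v', om (σ v) (σ v') = τ (om v v')
  hact : ∀ k v, σ (act k v) = act (α k) (σ v)

theorem exists_AD [Finite F] {p : ℕ} [Fact p.Prime] [CharP F p] (h2 : (2 : F) ≠ 0)
    (α : Cm F ≃* Cm F) : ∃ τ σ, AD α τ σ := by
  have hz : ∀ a, α (cz a) = cz (α (cz a)).z := fun a => by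
    have : α (cz a) ∈ Zs F := by
      rw [← center_eq h2, mem_center_iff]
      intro g
      obtain ⟨g, rfl⟩ := α.surjective g
      rw [← map_mul, ← map_mul, cz_comm]
    obtain ⟨b, hb⟩ := mem_Zs'.1 this
    rw [hb]; rfl
  have hQ : ∀ q ∈ Qs F, α q ∈ Qs F := fun q hq => by
    have : ((Qs F).map α.toMonoidHom).Normal := Normal.map inferInstance _ α.surjective
    exact normal_le_Qs (((isPGroup_Ps (p := p)).to_le Qs_le_Ps).map α.toMonoidHom) ⟨q, hq, rfl⟩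
  have hmul : ∀ q ∈ Qs F, ∀ q' : Cm F, ((q * q').u, (q * q').w) = (q.u, q.w) + (q'.u, q'.w) :=
    fun q hq q' => by simp [hq.1, hq.2.1, hq.2.2.1, hq.2.2.2]
  have hq : ∀ q ∈ Qs F, ((α q).u, (α q).w) = ((α (cq 0 q.u q.w)).u, (α (cq 0 q.u q.w)).w) :=
    fun q hq => by
      have : q = cz q.z * cq 0 q.u q.w := by
        ext <;> simp [cz, cq, hq.1, hq.2.1, hq.2.2.1, hq.2.2.2]
      conv_lhs => rw [this, map_mul, hz]
      simp [cz]
  let τ : F →+ F := AddMonoidHom.mk' (fun a => (α (cz a)).z) fun a b =>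
    cz_inj (by rw [← hz, ← cz_mul, ← cz_mul, ← hz, ← hz, map_mul])
  let σ : F × F →+ F × F := AddMonoidHom.mk'
    (fun v => ((α (cq 0 v.1 v.2)).u, (α (cq 0 v.1 v.2)).w)) fun v v' => by
      rw [← hmul _ (hQ _ (cq_mem ..)), ← map_mul, hq _ (mul_mem (cq_mem ..) (cq_mem ..))]
      simp [cq]
  refine ⟨τ, σ, hz, fun q h => ⟨hQ q h, hq q h⟩, fun v v' => ?_, fun k v => ?_⟩
  · have e : cq 0 v.1 v.2 * cq 0 v'.1 v'.2 =
        cz (om v v') * cz (om v v') * (cq 0 v'.1 v'.2 * cq 0 v.1 v.2) := by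
      ext <;> simp [cz, cq, om] <;> ring
    have e' := congrArg (fun x => (α x).z) e
    obtain ⟨a1, a2, a3, a4⟩ := hQ _ (cq_mem 0 v.1 v.2)
    obtain ⟨b1, b2, b3, b4⟩ := hQ _ (cq_mem 0 v'.1 v'.2)
    simp only [map_mul] at e'
    rw [hz (om v v')] at e'
    simp [cz, a1, a2, a3, a4, b1, b2, b3, b4] at e'
    apply mul_left_cancel₀ h2
    show 2 * (_ * _ - _ * _) = 2 * (α (cz (om v v'))).z
    simp only [σ, AddMonoidHom.mk'_apply, cz]
    linear_combination e'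
  · have e : ∀ (k q : Cm F), q ∈ Qs F →
        ((k * q * k⁻¹).u, (k * q * k⁻¹).w) = act k (q.u, q.w) := fun k q hq => by
      have := k.det
      simp [act, hq.1, hq.2.1, hq.2.2.1, hq.2.2.2]
      constructor
      · linear_combination (-k.u) * this
      · linear_combination (-k.w) * this
    have h1 := hq _ (normal_Qs.conj_mem _ (cq_mem 0 v.1 v.2) k)
    have h3 := e k _ (cq_mem 0 v.1 v.2)
    rw [map_mul, map_mul, map_inv, e _ _ (hQ _ (cq_mem ..))] at h1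
    rw [show σ v = ((α (cq 0 v.1 v.2)).u, (α (cq 0 v.1 v.2)).w) from rfl, h1]
    have h4 : act k v = ((k * cq 0 v.1 v.2 * k⁻¹).u, (k * cq 0 v.1 v.2 * k⁻¹).w) := h3.symm
    rw [h4]; rfl

namespace AD

variable {α : Cm F ≃* Cm F} {τ : F →+ F} {σ : F × F →+ F × F} (h : AD α τ σ)
include h

theorem τinj {a : F} (e : τ a = 0) : a = 0 :=
  cz_inj (α.injective (by rw [h.hz, e, cz_zero, map_one]))

theorem quad {k : Cm F} (hk : k ∈ Ps F) (hk' : α k ∈ Ps F) (w : F) :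
    τ (k.b * w ^ 2) = (α k).b * (σ (0, w)).2 ^ 2 := by
  have e := h.hω (0, w) (act k (0, w))
  rw [h.hact] at e
  simp only [om, act, hk.1, hk.2.1, hk.2.2, hk'.1, hk'.2.1, hk'.2.2] at e
  rw [show 0 * (0 * 0 + 1 * w) - w * (1 * 0 + k.b * w) = -(k.b * w ^ 2) by ring, map_neg] at e
  linear_combination e

theorem ni_z [Finite F] (nsq : ¬ IsSquare (-1 : F)) {k : Cm F} (hk : k ∈ Ps F) (hk' : α k ∈ Ps F)
    (hb : (α k).b = k.b) (h0 : k.b ≠ 0) {z : F} (e : τ z = -z) : z = 0 := by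
  have key : ∀ w, τ (k.b * w ^ 2) = -(k.b * w ^ 2) → w = 0 := fun w e => by
    rw [h.quad hk hk', hb] at e
    exact sq_add_sq nsq (a := (σ (0, w)).2) (mul_left_cancel₀ h0 (by linear_combination e))
  rcases sq_or_neg nsq (z / k.b) with ⟨r, hr⟩ | ⟨r, hr⟩
  · have hz : z = k.b * r ^ 2 := by rw [← hr]; field_simp
    rw [hz, key r (hz ▸ e)]; simp
  · have hz : z = -(k.b * r ^ 2) := by
      rw [show r ^ 2 = -(z / k.b) by rw [hr]; ring]; field_simp
    rw [hz, map_neg] at e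
    rw [hz, key r (neg_injective e)]; simp

theorem ni_x [Finite F] (nsq : ¬ IsSquare (-1 : F)) {k : Cm F} (hk : k ∈ Ps F) (hk' : α k ∈ Ps F)
    (hb : (α k).b = k.b) (h0 : k.b ≠ 0) {l : Cm F} (hl : l ∈ Ps F) (hl' : α l ∈ Ps F)
    (e : (α l).b = -l.b) : l.b = 0 := by
  have q1 := h.quad hk hk'
  have q2 := h.quad hl hl' 1
  rw [hb] at q1
  rw [e] at q2
  have b1 : (σ (0, 1)).2 ≠ 0 := fun e => by
    have := q1 1
    rw [e] at this
    have := h.τinj (a := k.b * 1 ^ 2) (by rw [this]; ring)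
    exact h0 (by linear_combination this)
  rcases sq_or_neg nsq (l.b / k.b) with ⟨r, hr⟩ | ⟨r, hr⟩
  · have hz : l.b = k.b * r ^ 2 := by rw [← hr]; field_simp
    rw [hz, one_pow, mul_one, q1] at q2
    have := sq_add_sq nsq (a := (σ (0, r)).2) (b := r * (σ (0, 1)).2)
      (mul_left_cancel₀ h0 (by linear_combination q2))
    rw [hz, (mul_eq_zero.1 this).resolve_right b1]; simp
  · have hz : l.b = -(k.b * r ^ 2) := by
      rw [show r ^ 2 = -(l.b / k.b) by rw [hr]; ring]; field_simp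
    rw [hz, one_pow, mul_one, map_neg, q1] at q2
    have := sq_add_sq nsq (a := (σ (0, r)).2) (b := r * (σ (0, 1)).2)
      (mul_left_cancel₀ h0 (by linear_combination -q2))
    rw [hz, (mul_eq_zero.1 this).resolve_right b1]; simp

theorem not_neg (h2 : (2 : F) ≠ 0) (hτ : ∀ a, τ a = -a) : ¬ ∀ v, σ v = -v := fun e => by
  have := h.hω (1, 0) (0, 1)
  rw [e, e, hτ] at this
  simp [om] at this
  exact h2 (by linear_combination this)

theorem ni_i (nsq : ¬ IsSquare (-1 : F)) (hi : α ci = ci) (hτ : ∀ a, τ a = -a)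
    (hσ : ∀ v, σ (σ v) = v) : False := by
  have h2 := two_ne_of_nsq nsq
  refine h.not_neg h2 hτ fun v => ?_
  have e1 : σ (v + σ v) = v + σ v := by rw [map_add, hσ, add_comm]
  generalize hp : v + σ v = x at e1
  have e := h.hω x (act ci x)
  rw [h.hact, hi, e1, hτ] at e
  simp [om, act, ci] at e
  have e2 : x.1 ^ 2 + x.2 ^ 2 = 0 := mul_left_cancel₀ h2 (by linear_combination e)
  have x2 := sq_add_sq nsq e2
  have x1 := sq_add_sq nsq (a := x.2) (b := x.1) (by linear_combination e2)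
  have : x = 0 := Prod.ext x1 x2
  rw [this] at hp
  exact eq_neg_of_add_eq_zero_right hp

theorem not_four (nsq : ¬ IsSquare (-1 : F)) (hτ : ∀ a, τ a = -a)
    (hσ : ∀ v, σ (σ v) = -v) : False := by
  have h2 := two_ne_of_nsq nsq
  have key : ∀ v, om v (σ v) = 0 := fun v => by
    have e := h.hω v (σ v)
    rw [hσ, hτ] at e
    simp [om] at e ⊢
    exact mul_left_cancel₀ h2 (by linear_combination e)
  have k1 := key (1, 0)
  have k2 := key (0, 1)
  have k3 := key ((1, 0) + (0, 1))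
  have k4 := key (σ (1, 0) + (0, 1))
  rw [map_add] at k3 k4
  rw [hσ] at k4
  simp [om] at k1 k2 k3 k4
  simp [k1, k2] at k3 k4
  exact nsq ⟨(σ (1, 0)).1, by linear_combination -k4 + (σ (1, 0)).1 * k3⟩

theorem exists_fix (h2 : (2 : F) ≠ 0) (hτ : ∀ a, τ a = -a) (hα : ∀ k, α (α k) = k) :
    ∃ q ∈ Qs F, q ∉ Zs F ∧ α q = q := by
  obtain ⟨v, hv⟩ : ∃ v, σ v ≠ -v := by
    by_contra hc
    push Not at hc
    exact h.not_neg h2 hτ hc
  have hσ : σ (σ v) = v := by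
    obtain ⟨a1, a2⟩ := h.hq _ (cq_mem 0 v.1 v.2)
    have := (h.hq _ a1).2
    rw [hα, a2] at this
    exact this.symm
  have e1 : σ (v + σ v) = v + σ v := by rw [map_add, hσ, add_comm]
  have e0 : v + σ v ≠ 0 := fun e => hv (eq_neg_of_add_eq_zero_right e)
  generalize v + σ v = x at e1 e0
  obtain ⟨⟨a1, a2, a3, a4⟩, a5⟩ := h.hq _ (cq_mem 0 x.1 x.2)
  rw [show ((cq 0 x.1 x.2).u, (cq 0 x.1 x.2).w) = x from rfl, e1] at a5
  refine ⟨cz ((α (cq 0 x.1 x.2)).z / 2) * cq 0 x.1 x.2, mul_mem (Zs_le_Qs (cz_mem _)) (cq_mem ..),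
    fun e => e0 ?_, ?_⟩
  · have e2 := e.1
    have e3 := e.2.1
    simp [cz, cq] at e2 e3
    exact Prod.ext e2 e3
  · rw [map_mul, h.hz, hτ]
    have b1 := congrArg Prod.fst a5
    have b2 := congrArg Prod.snd a5
    simp only at b1 b2
    ext
    · simp [cz, show (cq (0 : F) x.1 x.2).z = 0 from rfl]; field_simp; ring
    all_goals simp [cz, a1, a2, a3, a4, b1, b2]
    all_goals rfl

theorem fix_one (hv : α (cm 0 1 0) = cm 0 1 0) (hx : α (cm 0 0 1) = cm 0 0 1) : τ 1 = 1 := by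
  have e1 := (h.hq _ (show cm 0 1 0 ∈ Qs F from ⟨rfl, rfl, rfl, rfl⟩)).2
  rw [hv] at e1
  have e1 : σ (1, 0) = (1, 0) := e1.symm
  have e2 := h.hact (cm 0 0 1) (0, 1)
  rw [hx, show act (cm (0 : F) 0 1) (0, 1) = (1, 0) + (0, 1) by simp [act, cm], map_add, e1] at e2
  have e3 := congrArg Prod.fst e2
  simp [act, cm] at e3
  have := h.quad (k := cm 0 0 1) (Ms_le_Ps (cm_mem ..)) (by rw [hx]; exact Ms_le_Ps (cm_mem ..)) 1
  rw [hx] at this
  simp [cm] at this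
  rw [this, show (σ (0, 1)).2 = 1 by linear_combination -e3]; simp

end AD

theorem not_sq_neg [Finite F] [CharP F 3] (nsq : ¬ IsSquare (-1 : F)) (τ : F →+ F) :
    ¬ ∀ a, τ (τ a) = -a := fun e => by
  have := Fintype.ofFinite F
  let _ := ZMod.algebra F 3
  have h4 := FiniteField.isSquare_neg_one_iff.not.1 nsq
  push Not at h4
  rw [Module.card_eq_pow_finrank (K := ZMod 3), ZMod.card] at h4
  have ho : Odd (Module.finrank (ZMod 3) F) := by
    rw [← Nat.not_even_iff_odd]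
    rintro ⟨k, hk⟩
    rw [hk, ← two_mul, pow_mul] at h4
    simp [Nat.pow_mod] at h4
  have e' : τ.toZModLinearMap 3 ∘ₗ τ.toZModLinearMap 3 = (-1 : ZMod 3) • LinearMap.id := by
    ext a; simp [e]
  have := congrArg LinearMap.det e'
  rw [LinearMap.det_comp, LinearMap.det_smul, ho.neg_one_pow] at this
  simp only [LinearMap.det_id, mul_one] at this
  revert this
  generalize LinearMap.det (τ.toZModLinearMap 3) = d
  revert d
  decide

/-- The normaliser of the centre. -/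
def Hg {G : Type*} [Group G] (φ : Cm F →* G) : Subgroup G := normalizer (Zg φ : Set G)
/-- The image of `As`. -/
def Ag {G : Type*} [Group G] (φ : Cm F →* G) : Subgroup G := (As F).map φ
/-- The image of `Xs`. -/
def Xg {G : Type*} [Group G] (φ : Cm F →* G) : Subgroup G := (Xs F).map φ

namespace Hy

variable {G : Type*} [Group G] {φ : Cm F →* G} (h : Hy φ)
include h

omit h in
theorem mem_Zg {x : G} : x ∈ Zg φ ↔ ∃ a, x = φ (cz a) :=
  ⟨by rintro ⟨k, hk, rfl⟩; obtain ⟨a, rfl⟩ := mem_Zs'.1 hk; exact ⟨a, rfl⟩,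
    by rintro ⟨a, rfl⟩; exact ⟨_, cz_mem a, rfl⟩⟩

omit h in
theorem cz_mem_Zg (a : F) : φ (cz a) ∈ Zg φ := mem_Zg.2 ⟨a, rfl⟩

theorem cz_ne_one {a : F} (ha : a ≠ 0) : φ (cz a) ≠ 1 := fun e =>
  ha (cz_inj (h.inj (e.trans (map_one φ).symm)))

theorem mem_C {g z : G} (hz : z ∈ Zg φ) (hz1 : z ≠ 1) (e : g * z = z * g) : g ∈ φ.range := by
  obtain ⟨a, rfl⟩ := mem_Zg.1 hz
  exact h.mem_range (by rintro rfl; exact hz1 (map_one φ)) e

omit h in
theorem C_comm {g z : G} (hg : g ∈ φ.range) (hz : z ∈ Zg φ) : g * z = z * g := by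
  obtain ⟨a, rfl⟩ := mem_Zg.1 hz
  obtain ⟨k, rfl⟩ := hg
  rw [← map_mul, ← map_mul, cz_comm]

theorem conj_C {g z : G} (hz : z ∈ Zg φ) (hz1 : z ≠ 1) (e : g * z * g⁻¹ ∈ Zg φ) {x : G}
    (hx : x ∈ φ.range) : g * x * g⁻¹ ∈ φ.range :=
  h.mem_C e (fun e => hz1 (conj_eq_one_iff.1 e)) (by
    calc _ = g * (x * z) * g⁻¹ := by group
      _ = _ := by rw [C_comm hx hz]; group)

theorem ti [Finite G] (h2 : (2 : F) ≠ 0) {g z : G} (hz : z ∈ Zg φ) (hz1 : z ≠ 1)
    (e : g * z * g⁻¹ ∈ Zg φ) : g ∈ Hg φ := mem_normalizer_of_le fun y hy => by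
  obtain ⟨k, hk⟩ := h.conj_C hz hz1 e (map_le_range _ _ hy)
  refine ⟨k, ?_, hk⟩
  rw [SetLike.mem_coe, ← center_eq h2, mem_center_iff]
  intro l
  apply h.inj
  have := C_comm (h.conj_C (g := g⁻¹) e (fun e => hz1 (conj_eq_one_iff.1 e))
    (by simpa [mul_assoc] using hz) ⟨l, rfl⟩) hy
  rw [map_mul, map_mul, hk]
  calc _ = g * (g⁻¹ * φ l * g⁻¹⁻¹ * y) * g⁻¹ := by group
    _ = _ := by rw [this]; group

omit h in
theorem C_le_H : φ.range ≤ Hg φ := fun g hg => centralizer_le_normalizer _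
  fun z hz => (C_comm hg hz).symm

theorem H_conj {g : G} (hg : g ∈ Hg φ) {x : G} (hx : x ∈ φ.range) : g * x * g⁻¹ ∈ φ.range :=
  h.conj_C (cz_mem_Zg 1) (h.cz_ne_one one_ne_zero)
    ((mem_normalizer_iff.1 hg _).1 (cz_mem_Zg 1)) hx

theorem exists_aut {g : G} (hg : g ∈ Hg φ) :
    ∃ α : Cm F ≃* Cm F, ∀ k, φ (α k) = g * φ k * g⁻¹ := by
  choose f hf using fun k => h.H_conj hg ⟨k, rfl⟩
  choose f' hf' using fun k => h.H_conj (inv_mem hg) ⟨k, rfl⟩
  exact ⟨⟨⟨f, f', fun k => h.inj (by rw [hf', hf]; group), fun k => h.inj (by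
    rw [hf, hf']; group)⟩, fun k l => h.inj (by
      show φ (f (k * l)) = φ (f k * f l)
      rw [map_mul, hf, hf, hf, map_mul]; group)⟩, hf⟩

theorem H_norm_Q [Finite F] {p : ℕ} [Fact p.Prime] [CharP F p] (h2 : (2 : F) ≠ 0) {g : G}
    (hg : g ∈ Hg φ) {x : G} (hx : x ∈ Qg φ) : g * x * g⁻¹ ∈ Qg φ := by
  obtain ⟨α, hα⟩ := h.exists_aut hg
  obtain ⟨τ, σ, ad⟩ := exists_AD (p := p) h2 α
  obtain ⟨k, hk, rfl⟩ := hx
  exact ⟨α k, (ad.hq k hk).1, hα k⟩

theorem inverts {g : G} (hg : g ∈ Hg φ) (hg2 : g * g ∈ φ.range) (hgC : g ∉ φ.range) {z : G}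
    (hz : z ∈ Zg φ) : g * z * g⁻¹ = z⁻¹ := by
  by_contra hne
  have hz' := (mem_normalizer_iff.1 hg z).1 hz
  refine hgC (h.mem_C (mul_mem hz hz') (fun e => hne (eq_inv_of_mul_eq_one_right e)) ?_)
  have e1 := C_comm hg2 hz
  have e2 := C_comm (map_le_range _ _ hz) hz'
  calc g * (z * (g * z * g⁻¹)) = g * z * g⁻¹ * (g * g * z) * g⁻¹ := by group
    _ = g * z * g⁻¹ * z * g := by rw [e1]; group
    _ = _ := by rw [← e2]

theorem p_mem_C [Finite F] [Finite G] {p : ℕ} [Fact p.Prime] [CharP F p] {g : G} (hg : g ∈ Hg φ)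
    {k : ℕ} (e : g ^ p ^ k = 1) : g ∈ φ.range := by
  classical
  have := Fintype.ofFinite (Zg φ)
  let s : Equiv.Perm (Zg φ) := MulAut.toPerm _ ((Zg φ).normalizerMonoidHom ⟨g, hg⟩)
  obtain ⟨z, hz, hz1⟩ := Equiv.Perm.exists_fixed_point_of_prime' (p := p) (n := k) (σ := s) (by
    rw [← Nat.card_eq_fintype_card, Zg, card_map_of_injective h.inj, card_Zs]
    exact dvd_card p) (by
      rw [← map_pow, ← map_pow, show (⟨g, hg⟩ : normalizer (Zg φ : Set G)) ^ p ^ k = 1 from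
        Subtype.ext e, map_one, map_one]) (a := 1) (map_one ((Zg φ).normalizerMonoidHom ⟨g, hg⟩))
  exact h.mem_C z.2 (fun e => hz1 (Subtype.ext e))
    (mul_inv_eq_iff_eq_mul.1 (congrArg Subtype.val hz))

theorem le_C [Finite G] {p : ℕ} [hp : Fact p.Prime] [CharP F p] (hF : p < Nat.card F)
    {R : Subgroup G} (hR : ¬ p ∣ Nat.card R) (hn : Zg φ ≤ normalizer (R : Set G)) :
    R ≤ φ.range := by
  have : Finite F := Nat.finite_of_card_ne_zero (by omega)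
  have hc : Nat.card (Zg φ) = Nat.card F := by rw [Zg, card_map_of_injective h.inj, card_Zs]
  have : IsMulCommutative (Zg φ) := ⟨⟨fun a b => Subtype.ext (C_comm (map_le_range _ _ a.2) b.2)⟩⟩
  have hpZ : IsPGroup p (Zg φ) := (isPGroup_Ps.to_le (Zs_le_Ms.trans Ms_le_Ps)).map φ
  refine (Cfsg.Agent.S0058.result (Zg φ) R (fun hcy => ?_) hn ?_).ge.trans
    (iSup₂_le fun z hz x hx => h.mem_C hz.1 hz.2 (mem_centralizer_singleton_iff.1 hx.2))
  · obtain ⟨⟨z, hz⟩, hz'⟩ := hcy.exists_ofOrder_eq_natCard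
    obtain ⟨k, hk, rfl⟩ := hz
    have := orderOf_le_of_pow_eq_one hp.out.pos (show (⟨φ k, k, hk, rfl⟩ : Zg φ) ^ p = 1 from
      Subtype.ext (by show φ k ^ p = 1; rw [← map_pow, Ms_pow (Zs_le_Ms hk), map_one]))
    omega
  · obtain ⟨k, hk⟩ := IsPGroup.iff_card.1 hpZ
    rw [hk]
    exact ((Nat.Prime.coprime_iff_not_dvd hp.out).2 hR).pow_left k

end Hy

end H62.Hay
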