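import Mathlib
import Cfsg.Agent.Lib.Hay.Basic
import Cfsg.Agent.Lib.Comp.Quasisimple

/-! Quasisimple subgroups with central quotient `L₂(3^a)`, `a` odd. -/

set_option autoImplicit false

namespace H62.Hay

open Subgroup Cm Matrix
open scoped MatrixGroups

section PSL

variable {F : Type*} [Field F]

/-- The projection to `PSL₂`. -/
def ppr : Cm F →* PSL(2, F) := (QuotientGroup.mk' _).comp pr

theorem ppr_surjective : Function.Surjective (ppr : Cm F → PSL(2, F)) :=
  QuotientGroup.mk_surjective.comp fun g => ⟨sl g, pr_sl g⟩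

theorem ppr_eq_one {g : Cm F} : ppr g = 1 ↔ g.b = 0 ∧ g.c = 0 ∧ g.a = g.d := by
  show (QuotientGroup.mk (pr g) : PSL(2, F)) = 1 ↔ _
  rw [QuotientGroup.eq_one_iff, Matrix.SpecialLinearGroup.mem_center_iff]
  constructor
  · rintro ⟨r, -, h⟩
    have e := fun i j => congrFun (congrFun h i) j
    have e1 := e 0 0
    have e2 := e 0 1
    have e3 := e 1 0
    have e4 := e 1 1
    simp at e1 e2 e3 e4
    exact ⟨e2.symm, e3.symm, e1.symm.trans e4⟩
  · rintro ⟨h1, h2, h3⟩
    have := g.det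
    refine ⟨g.a, ?_, ?_⟩
    · rw [h1, ← h3] at this
      simp only [Fintype.card_fin]
      linear_combination this
    · ext i j
      fin_cases i <;> fin_cases j <;> simp [h1, h2, h3]

theorem Bs_norm_Ps [Finite F] : Bs F ≤ normalizer (Ps F : Set (Cm F)) := fun g hg =>
  mem_normalizer_of_le fun x hx => by
    have := g.det
    have hc : g.c = 0 := hg
    obtain ⟨h1, h2, h3⟩ := hx
    rw [hc] at this
    refine ⟨?_, ?_, ?_⟩ <;> simp [h1, h2, h3, hc] <;> linear_combination this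

theorem card_ppr_Ps (h2 : (2 : F) ≠ 0) : Nat.card ((Ps F).map ppr) = Nat.card F := by
  refine (Nat.card_congr (Equiv.ofBijective (fun c : F => (⟨ppr (cm 0 0 c),
    _, Ms_le_Ps (cm_mem ..), rfl⟩ : (Ps F).map ppr)) ⟨fun c c' e => ?_, ?_⟩)).symm
  · have e' : ppr (cm 0 0 c) = ppr (cm 0 0 c') := congrArg Subtype.val e
    rw [← mul_inv_eq_one, ← map_inv, ← map_mul, cm_inv, cm_mul, ppr_eq_one] at e'
    have : c + -c' = 0 := e'.1
    linear_combination this
  · rintro ⟨_, k, hk, rfl⟩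
    refine ⟨k.b, Subtype.ext ?_⟩
    show ppr _ = ppr _
    rw [← mul_inv_eq_one, ← map_inv, ← map_mul, ppr_eq_one]
    simp [cm, hk.1, hk.2.1, hk.2.2]

theorem sl_p3 [Finite F] (nsq : ¬ IsSquare (-1 : F)) {I J : Matrix (Fin 2) (Fin 2) F}
    (hI : I * I = -1) (hd : J.det = 1) (hc : I * J = J * I) (hJ : J ^ (Nat.card F - 1) = 1) :
    J 0 1 = 0 ∧ J 1 0 = 0 ∧ J 0 0 = J 1 1 := by
  have := Fintype.ofFinite F
  have h2 := two_ne_of_nsq nsq
  obtain ⟨p, hp⟩ := CharP.exists F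
  obtain ⟨n, hpp, hn⟩ := FiniteField.card F p
  have := Fact.mk hpp
  have h4 := FiniteField.isSquare_neg_one_iff.not.1 nsq
  push Not at h4
  have e := fun i j => congrFun (congrFun hI i) j
  have e1 := e 0 0
  have e2 := e 0 1
  have e3 := e 1 0
  have f := fun i j => congrFun (congrFun hc i) j
  have f1 := f 0 0
  have f2 := f 0 1
  simp [Matrix.mul_apply, Fin.sum_univ_two] at e1 e2 e3 f1 f2
  have hb : I 0 1 ≠ 0 := fun h => by
    rw [h] at e1
    exact nsq ⟨I 0 0, by linear_combination -e1⟩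
  have ht : I 1 1 = -I 0 0 := mul_left_cancel₀ hb (by linear_combination e2)
  obtain ⟨β, hβ⟩ : ∃ β, β = J 0 1 / I 0 1 := ⟨_, rfl⟩
  obtain ⟨α, hα⟩ : ∃ α, α = J 0 0 - β * I 0 0 := ⟨_, rfl⟩
  have hβ' : J 0 1 = β * I 0 1 := by rw [hβ]; field_simp
  have hJe : J = α • (1 : Matrix (Fin 2) (Fin 2) F) + β • I := by
    ext i j
    fin_cases i <;> fin_cases j
    · simp [hα]
    · simp [hβ']
    · simp
      apply mul_left_cancel₀ hb
      rw [hβ'] at f1
      linear_combination f1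
    · simp [hα, ht]
      apply mul_left_cancel₀ hb
      rw [hβ', ht] at f2
      linear_combination f2
  have : ExpChar (Matrix (Fin 2) (Fin 2) F) p := by
    have : CharP (Matrix (Fin 2) (Fin 2) F) p := charP_of_injective_algebraMap
      (algebraMap F (Matrix (Fin 2) (Fin 2) F)).injective p
    exact ExpChar.prime hpp
  have hq : J ^ Fintype.card F = α • (1 : Matrix (Fin 2) (Fin 2) F) - β • I := by
    have hI4 : I ^ Fintype.card F = -I := by
      rw [← Nat.div_add_mod (Fintype.card F) 4, h4, pow_add, pow_mul,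
        show I ^ 4 = 1 by rw [show 4 = 2 * 2 from rfl, pow_mul, sq I, hI]; simp,
        show I ^ 3 = I * I * I by rw [pow_succ, sq], hI]
      simp
    rw [hJe, hn, add_pow_expChar_pow_of_commute p n
      (((Commute.one_left I).smul_left α).smul_right β), smul_pow, smul_pow, ← hn,
      FiniteField.pow_card, FiniteField.pow_card, hI4, one_pow, smul_neg, sub_eq_add_neg]
  have hq' : J ^ Fintype.card F = J := by
    rw [Nat.card_eq_fintype_card] at hJ
    rw [show Fintype.card F = Fintype.card F - 1 + 1 by have := Fintype.card_pos (α := F); omega,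
      pow_succ, hJ, one_mul]
  rw [hq'] at hq
  have g := congrFun (congrFun hq 0) 1
  simp [hβ'] at g
  have hβ0 : β = 0 := mul_right_cancel₀ (mul_ne_zero h2 hb) (by linear_combination g)
  rw [hJe, hβ0]
  simp

theorem ppr_p3 [Finite F] (nsq : ¬ IsSquare (-1 : F)) {i j : Cm F} (h1 : ppr (i * i) = 1)
    (h2 : ppr i ≠ 1) (h3 : ppr (i * j) = ppr (j * i)) (h4 : ppr j ^ ((Nat.card F - 1) / 2) = 1) :
    ppr j = 1 := by
  have := Fintype.ofFinite F
  have hq := FiniteField.isSquare_neg_one_iff.not.1 nsq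
  push Not at hq
  rw [← Nat.card_eq_fintype_card] at hq
  have two := two_ne_of_nsq nsq
  have sc : ∀ k : Cm F, ppr k = 1 → (pr k).1 = 1 ∨ (pr k).1 = -1 := fun k hk => by
    obtain ⟨k1, k2, k3⟩ := ppr_eq_one.1 hk
    have := k.det
    rw [k1, ← k3] at this
    have h5 : (k.a - 1) * (k.a + 1) = 0 := by linear_combination this
    rcases mul_eq_zero.1 h5 with h | h
    · have h : k.a = 1 := by linear_combination h
      left; rw [pr_coe, k1, k2, ← k3, h, one_fin_two]
    · have h : k.a = -1 := by linear_combination h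
      right; rw [pr_coe, k1, k2, ← k3, h, one_fin_two]; simp
  have hI : (pr i).1 * (pr i).1 = -1 := by
    rcases sc _ h1 with h | h
    · exfalso
      rw [ppr_eq_one] at h1
      rw [Ne, ppr_eq_one] at h2
      have e0 := congrFun (congrFun h 0) 0
      have := i.det
      simp [Matrix.mul_apply, Fin.sum_univ_two] at h1 e0
      obtain ⟨e1, e2, e3⟩ := h1
      have ht : i.a + i.d ≠ 0 := fun ht => two (by
        linear_combination (-1 : F) * e0 + i.a * ht - this)
      have hb : i.b = 0 := mul_left_cancel₀ ht (by linear_combination e1)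
      have hc : i.c = 0 := mul_left_cancel₀ ht (by linear_combination e2)
      exact h2 ⟨hb, hc, mul_left_cancel₀ ht (by linear_combination e3)⟩
    · rw [map_mul] at h; exact h
  set m := (Nat.card F - 1) / 2 with hm
  have hmo : Odd m := ⟨(Nat.card F - 3) / 4, by omega⟩
  have hJ : (pr j).1 ^ m = 1 ∨ (pr j).1 ^ m = -1 := by
    have := sc (j ^ m) (by rw [map_pow, h4])
    rwa [map_pow] at this
  have hc : (pr i).1 * (pr j).1 = (pr j).1 * (pr i).1 := by
    have e := sc (i * j * (j * i)⁻¹) (by rw [map_mul, map_inv, h3, mul_inv_cancel])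
    have e' : (pr (i * j * (j * i)⁻¹)).1 * ((pr j).1 * (pr i).1) = (pr i).1 * (pr j).1 := by
      have pm : ∀ x y : Cm F, (pr x).1 * (pr y).1 = (pr (x * y)).1 := fun x y => by
        rw [map_mul]; rfl
      rw [pm, pm, pm]
      congr 2; group
    rcases e with e | e
    · rw [← e', e, one_mul]
    · exfalso
      rw [e] at e'
      have e2 : ∀ n : ℕ, (pr i).1 * (pr j).1 ^ n = (-1) ^ n * (pr j).1 ^ n * (pr i).1 := by
        intro n
        induction n with
        | zero => simp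
        | succ n ih =>
          rw [pow_succ, ← mul_assoc, ih, mul_assoc, ← e', pow_succ]
          noncomm_ring
      have e3 := e2 m
      rw [hmo.neg_one_pow] at e3
      have e4 : (pr i).1 = -(pr i).1 := by
        rcases hJ with h | h <;> rw [h] at e3
        · simpa using e3
        · simpa using e3.symm
      have e5 : (pr i).1 = 0 := by
        ext a b
        have := congrFun (congrFun e4 a) b
        simp only [Matrix.neg_apply] at this
        exact mul_left_cancel₀ two (by rw [Matrix.zero_apply]; linear_combination this)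
      have := (pr i).det_coe
      rw [e5] at this
      simp at this
  have := sl_p3 nsq hI (pr j).det_coe hc (by
    rw [show Nat.card F - 1 = m * 2 by omega, pow_mul]
    rcases hJ with h | h <;> rw [h] <;> simp)
  exact ppr_eq_one.2 this

end PSL

variable {G : Type*} [Group G]

/-- `J` is quasisimple of type `L₂(3^a)`, `a > 1` odd, with Sylow 3-subgroup `U`. -/
structure L2 (J U : Subgroup G) : Prop where
  qs : Cfsg.IsQuasisimple J
  le : U ≤ J
  comm : ∀ u ∈ U, ∀ v ∈ U, u * v = v * u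
  pg : IsPGroup 3 U
  syl : ∀ S ≤ J, IsPGroup 3 S → ∃ j ∈ J, cj j S ≤ U
  cen : ∀ u ∈ U, u ∈ centralizer (J : Set G) → u = 1
  bru : ∃ w ∈ J, w ∉ normalizer (U : Set G) ∧ ∀ j ∈ J, j ∈ normalizer (U : Set G) ∨
    ∃ u ∈ U, (u * w)⁻¹ * j ∈ normalizer (U : Set G)
  tor : ∀ u ∈ U, ∀ v ∈ U, u ≠ 1 → v ≠ 1 → ∃ d ∈ J, d ∈ normalizer (U : Set G) ∧
    (d * u * d⁻¹ = v ∨ d * u * d⁻¹ = v⁻¹)
  big : 3 < Nat.card U
  p3 : ∀ i ∈ J, ∀ j ∈ J, i * i ∈ centralizer (J : Set G) → i ∉ centralizer (J : Set G) →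
    i * j = j * i → j ^ ((Nat.card U - 1) / 2) ∈ centralizer (J : Set G) →
    j ∈ centralizer (J : Set G)

theorem l2_top [Finite G] (hq : Cfsg.IsQuasisimple G) (hz : ¬ 3 ∣ Nat.card (center G))
    {F : Type*} [Field F] [Finite F] [CharP F 3] (nsq : ¬ IsSquare (-1 : F)) (hF : 3 < Nat.card F)
    (e : (G ⧸ center G) ≃* PSL(2, F)) (U : Sylow 3 G) : L2 ⊤ (U : Subgroup G) := by
  have two := two_ne_of_nsq nsq
  let π0 : G →* PSL(2, F) := e.toMonoidHom.comp (QuotientGroup.mk' _)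
  have hπ0 : Function.Surjective π0 := e.surjective.comp QuotientGroup.mk_surjective
  obtain ⟨y, hy⟩ := MulAction.exists_smul_eq PSL(2, F) (U.mapSurjective hπ0)
    ((syl F 3).mapSurjective ppr_surjective)
  let π : G →* PSL(2, F) := (MulAut.conj y).toMonoidHom.comp π0
  have hπ : Function.Surjective π := (MulAut.conj y).surjective.comp hπ0
  have hU : (U : Subgroup G).map π = (Ps F).map ppr := by
    have := congrArg (fun P : Sylow 3 PSL(2, F) => (P : Subgroup PSL(2, F))) hy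
    simp only [cj_sylow, Sylow.coe_mapSurjective, coe_syl] at this
    rw [← this, cj, Subgroup.map_map]
  have hk : ∀ g, π g = 1 ↔ g ∈ center G := fun g => by
    simp [π, π0]
  have hc : ∀ g : G, g ∈ centralizer ((⊤ : Subgroup G) : Set G) ↔ π g = 1 := fun g => by
    rw [hk, coe_top, centralizer_univ]
  have hi : ∀ u ∈ (U : Subgroup G), π u = 1 → u = 1 := fun u hu h => by
    obtain ⟨k, hk'⟩ := U.2 ⟨u, hu⟩
    have h1 : orderOf u ∣ 3 ^ k := orderOf_dvd_of_pow_eq_one (congrArg Subtype.val hk')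
    have h2 : orderOf u ∣ Nat.card (center G) := (center G).orderOf_dvd_natCard ((hk u).1 h)
    exact orderOf_eq_one_iff.1 (Nat.eq_one_of_dvd_coprimes
      (((Nat.Prime.coprime_iff_not_dvd Nat.prime_three).2 hz).pow_left k) h1 h2)
  have hi' : ∀ u ∈ (U : Subgroup G), ∀ v ∈ (U : Subgroup G), π u = π v → u = v :=
    fun u hu v hv h => mul_inv_eq_one.1 (hi _ (mul_mem hu (inv_mem hv)) (by simp [h]))
  have hmem : ∀ g : G, (∃ k, g ^ 3 ^ k = 1) → π g ∈ (Ps F).map ppr → g ∈ (U : Subgroup G) := by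
    rintro g ⟨k, hg⟩ h
    rw [← hU] at h
    obtain ⟨u, hu, h⟩ := h
    have h1 : u⁻¹ * g ∈ center G := (hk _).1 (by simp [h])
    obtain ⟨l, hl⟩ := U.2 ⟨u, hu⟩
    have hl' : u ^ 3 ^ l = 1 := congrArg Subtype.val hl
    have hcm : Commute u⁻¹ g := by
      have := mem_center_iff.1 h1 u
      have e1 : g * u = u * g := by
        calc g * u = u * (u⁻¹ * g * u) := by group
          _ = u * (u * (u⁻¹ * g)) := by rw [this]
          _ = _ := by group
      exact (Commute.inv_left_iff).2 e1.symm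
    have h2 : (u⁻¹ * g) ^ 3 ^ (k + l) = 1 := by
      rw [hcm.mul_pow, inv_pow, pow_add, mul_comm (3 ^ k), pow_mul, hl', mul_comm (3 ^ l),
        pow_mul, hg]; simp
    have h3 : orderOf (u⁻¹ * g) ∣ Nat.card (center G) := (center G).orderOf_dvd_natCard h1
    have := orderOf_eq_one_iff.1 (Nat.eq_one_of_dvd_coprimes
      (((Nat.Prime.coprime_iff_not_dvd Nat.prime_three).2 hz).pow_left (k + l))
      (orderOf_dvd_of_pow_eq_one h2) h3)
    rw [inv_mul_eq_one] at this
    exact this ▸ hu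
  have hN : ∀ g : G, ∀ k ∈ Bs F, π g = ppr k → g ∈ normalizer ((U : Subgroup G) : Set G) :=
    fun g k hk' h => mem_normalizer_of_le fun u hu => by
      obtain ⟨l, hl⟩ := U.2 ⟨u, hu⟩
      refine hmem _ ⟨l, by rw [conj_pow, show u ^ 3 ^ l = 1 from congrArg Subtype.val hl]; simp⟩ ?_
      have : π u ∈ (Ps F).map ppr := hU ▸ mem_map_of_mem π hu
      obtain ⟨x, hx, e1⟩ := this
      refine ⟨k * x * k⁻¹, (mem_normalizer_iff.1 (Bs_norm_Ps hk') x).1 hx, ?_⟩
      simp [h, e1]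
  have hx : ∀ u ∈ (U : Subgroup G), ∃ c, π u = ppr (cm 0 0 c) := fun u hu => by
    have : π u ∈ (Ps F).map ppr := hU ▸ mem_map_of_mem π hu
    obtain ⟨x, hx, e1⟩ := this
    refine ⟨x.b, ?_⟩
    rw [← e1, ← mul_inv_eq_one, ← map_inv, ← map_mul, ppr_eq_one]
    simp [cm, hx.1, hx.2.1, hx.2.2]
  have hx' : ∀ c, ∃ u ∈ (U : Subgroup G), π u = ppr (cm 0 0 c) := fun c => by
    have : ppr (cm 0 0 c) ∈ (U : Subgroup G).map π := hU ▸ ⟨_, Ms_le_Ps (cm_mem ..), rfl⟩
    exact this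
  have hcard : Nat.card U = Nat.card F := by
    rw [← card_ppr_Ps two, ← hU]
    exact Nat.card_congr (Equiv.ofBijective (fun u => ⟨π u, mem_map_of_mem π u.2⟩)
      ⟨fun u v h => Subtype.ext (hi' _ u.2 _ v.2 (congrArg Subtype.val h)), by
        rintro ⟨_, u, hu, rfl⟩; exact ⟨⟨u, hu⟩, rfl⟩⟩)
  refine ⟨H23.IsQuasisimple.of_mulEquiv topEquiv.symm hq, le_top, fun u hu v hv => ?_, U.2,
    fun S _ hS => ?_, fun u hu h => hi u hu ((hc u).1 h), ?_, fun u hu v hv hu1 hv1 => ?_,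
    hcard ▸ hF, fun i _ j _ h1 h2 h3 h4 => ?_⟩
  · obtain ⟨c, h1⟩ := hx u hu
    obtain ⟨c', h2⟩ := hx v hv
    refine hi' _ (mul_mem hu hv) _ (mul_mem hv hu) ?_
    rw [map_mul, map_mul, h1, h2, ← map_mul, ← map_mul, cm_mul, cm_mul, add_comm c]
  · obtain ⟨g, hg⟩ := exists_conj_le_sylow hS U
    exact ⟨g, trivial, hg⟩
  · let w0 : Cm F := ⟨0, 0, 0, 0, -1, 1, 0, by ring⟩
    obtain ⟨w, hw⟩ := hπ (ppr w0)
    refine ⟨w, trivial, fun h => ?_, fun j _ => ?_⟩
    · obtain ⟨u, hu, h1⟩ := hx' 1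
      obtain ⟨c, h2⟩ := hx _ ((mem_normalizer_iff.1 h u).1 hu)
      rw [map_mul, map_mul, map_inv, hw, h1, ← mul_inv_eq_one, ← map_inv, ← map_inv, ← map_mul,
        ← map_mul, ← map_mul, ppr_eq_one] at h2
      simp [w0, cm] at h2
    · obtain ⟨k, hk'⟩ := ppr_surjective (π j)
      by_cases h0 : k.c = 0
      · exact Or.inl (hN j k h0 hk'.symm)
      · obtain ⟨u, hu, h1⟩ := hx' (k.a / k.c)
        refine Or.inr ⟨u, hu, hN _ ((cm 0 0 (k.a / k.c) * w0)⁻¹ * k) ?_ (by simp [h1, hw, hk'])⟩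
        show ((cm 0 0 (k.a / k.c) * w0)⁻¹ * k).c = 0
        simp [w0, cm]
        field_simp
        ring
  · obtain ⟨c, h1⟩ := hx u hu
    obtain ⟨c', h2⟩ := hx v hv
    have hc0 : c ≠ 0 := by rintro rfl; exact hu1 (hi u hu (by rw [h1, cm_zero, map_one]))
    have hc1 : c' ≠ 0 := by rintro rfl; exact hv1 (hi v hv (by rw [h2, cm_zero, map_one]))
    have key : ∀ r : F, r ≠ 0 → ∃ d ∈ normalizer ((U : Subgroup G) : Set G),
        π (d * u * d⁻¹) = ppr (cm 0 0 (r ^ 2 * c)) := fun r hr => by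
      obtain ⟨d, hd⟩ := hπ (ppr (ch (Units.mk0 r hr)))
      refine ⟨d, hN d _ (ch_mem _) hd, ?_⟩
      rw [map_mul, map_mul, map_inv, hd, h1, ← map_inv, ← map_mul, ← map_mul, ch_conj]
      simp
    rcases sq_or_neg nsq (c' / c) with ⟨r, hr⟩ | ⟨r, hr⟩
    · obtain ⟨d, hd, e1⟩ := key r (by rintro rfl; simp [hc0, hc1] at hr)
      refine ⟨d, trivial, hd, Or.inl (hi' _ ((mem_normalizer_iff.1 hd u).1 hu) _ hv ?_)⟩
      rw [e1, h2, ← hr]; congr 2; field_simp
    · obtain ⟨d, hd, e1⟩ := key r (by rintro rfl; simp [hc0, hc1] at hr)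
      refine ⟨d, trivial, hd, Or.inr (hi' _ ((mem_normalizer_iff.1 hd u).1 hu) _ (inv_mem hv) ?_)⟩
      rw [e1, map_inv, h2, ← map_inv, cm_inv, show r ^ 2 = -(c' / c) by rw [hr]; ring]
      congr 2
      · simp
      · simp
      · field_simp
  · rw [hc] at h1 h2 h4 ⊢
    obtain ⟨i', hi1⟩ := ppr_surjective (π i)
    obtain ⟨j', hj1⟩ := ppr_surjective (π j)
    rw [← hj1]
    refine ppr_p3 nsq (i := i') (by rw [map_mul, hi1, ← map_mul, h1]) (by rw [hi1]; exact h2)
      (by rw [map_mul, map_mul, hi1, hj1, ← map_mul, ← map_mul, h3]) ?_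
    rw [hj1, ← map_pow, ← hcard, h4]

namespace L2

variable {J U : Subgroup G} (h : L2 J U)
include h

theorem not_le : ¬ J ≤ centralizer (J : Set G) := H23.IsQuasisimple.not_le_centralizer h.qs

theorem exists_ne (u : G) : ∃ v ∈ U, v ≠ 1 ∧ v ≠ u ∧ v ≠ u⁻¹ := by
  classical
  by_contra hc
  push Not at hc
  have : (U : Set G) ⊆ ({1, u, u⁻¹} : Finset G) := fun v hv => by
    by_cases h1 : v = 1
    · simp [h1]
    · by_cases h2 : v = u
      · simp [h2]
      · simp [hc v hv h1 h2]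
  have h3 := Set.ncard_le_ncard this (Finset.finite_toSet _)
  rw [Set.ncard_coe_finset] at h3
  have := h.big
  have h4 : Nat.card U = (U : Set G).ncard := rfl
  have h5 : ({1, u, u⁻¹} : Finset G).card ≤ 3 := Finset.card_le_three
  omega

/-- Some element of `J` normalising `U` moves a given non-trivial element of `U`. -/
theorem exists_move {u : G} (hu : u ∈ U) (hu1 : u ≠ 1) :
    ∃ d ∈ J, d ∈ normalizer (U : Set G) ∧ d * u * d⁻¹ ≠ u := by
  obtain ⟨v, hv, h1, h2, h3⟩ := h.exists_ne u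
  obtain ⟨d, hd, hd', e⟩ := h.tor u hu v hv hu1 h1
  refine ⟨d, hd, hd', fun e' => ?_⟩
  rw [e'] at e
  rcases e with e | e
  · exact h2 e.symm
  · exact h3 (by rw [e, inv_inv])

theorem eq_of_normal {N : Subgroup G} (hNJ : N ≤ J) (hn : J ≤ normalizer (N : Set G)) {u : G}
    (hu : u ∈ U) (hu1 : u ≠ 1) (huN : u ∈ N) : N = J :=
  (H23.IsQuasisimple.eq_or_le_centralizer h.qs hNJ hn).resolve_right fun e =>
    hu1 (h.cen u hu (e huN))

/-- An element normalising `J` and centralising `U` acts on `J` as an element of `U`. -/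
theorem aut [Finite G] {g : G} (hg : g ∈ normalizer (J : Set G))
    (hc : g ∈ centralizer (U : Set G)) : ∃ u ∈ U, u⁻¹ * g ∈ centralizer (J : Set G) := by
  obtain ⟨w, hw, hw', hb⟩ := h.bru
  have cU : ∀ x ∈ centralizer (U : Set G), cj x U = U := fun x hx =>
    cj_eq_iff.2 (centralizer_le_normalizer _ hx)
  have hUc : U ≤ centralizer (U : Set G) := fun u hu v hv => h.comm v hv u hu
  obtain ⟨j, hj, e⟩ := h.syl (cj g (cj w U)) (by
    rw [← cj_eq_iff.2 hg]
    refine cj_mono g ?_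
    rw [← cj_eq_iff.2 (le_normalizer hw)]
    exact cj_mono w h.le) (isPGroup_cj g (isPGroup_cj w h.pg))
  have e1 : cj j (cj g (cj w U)) = U := eq_of_le_of_card_ge e (by
    rw [card_cj, card_cj, card_cj])
  have e2 : cj g (cj w U) = cj j⁻¹ U := by
    conv_rhs => rw [← e1, cj_cj, inv_mul_cancel, cj_one]
  obtain ⟨u, hu, e3⟩ : ∃ u ∈ U, cj (u⁻¹ * g) (cj w U) = cj w U := by
    rcases hb j⁻¹ (inv_mem hj) with h1 | ⟨u, hu, h1⟩
    · exfalso
      rw [cj_eq_iff.2 h1] at e2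
      apply hw'
      rw [← cj_eq_iff]
      have := congrArg (cj g⁻¹) e2
      rwa [cj_cj, inv_mul_cancel, cj_one, cU _ (inv_mem hc)] at this
    · refine ⟨u, hu, ?_⟩
      rw [← cj_cj, e2, cj_cj]
      conv_rhs => rw [← cj_eq_iff.2 h1, cj_cj]
      congr 1; group
  refine ⟨u, hu, ?_⟩
  set c := u⁻¹ * g with hcd
  have hcU : c ∈ centralizer (U : Set G) := mul_mem (inv_mem (hUc hu)) hc
  have hcJ : c ∈ normalizer (J : Set G) := mul_mem (inv_mem (le_normalizer (h.le hu))) hg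
  have all : ∀ j ∈ J, cj c (cj j U) = cj j U := fun j hj => by
    rcases hb j hj with h1 | ⟨v, hv, h1⟩
    · rw [cj_eq_iff.2 h1, cU c hcU]
    · have : cj j U = cj v (cj w U) := by
        conv_rhs => rw [← cj_eq_iff.2 h1, cj_cj, cj_cj]
        congr 1; group
      rw [this, cj_cj, ← mem_centralizer_iff.1 hcU v hv, ← cj_cj, e3]
  let N : Subgroup G := J ⊓ ⨅ j : J, normalizer (cj (j : G) U : Set G)
  have mN : ∀ x, x ∈ N ↔ x ∈ J ∧ ∀ j ∈ J, cj x (cj j U) = cj j U := fun x => by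
    simp [N, cj_eq_iff, mem_iInf]
  have hN : N ≤ centralizer (J : Set G) := by
    refine (H23.IsQuasisimple.eq_or_le_centralizer h.qs inf_le_left fun y hy =>
      mem_normalizer_of_le fun x hx => (mN _).2 ⟨mul_mem (mul_mem hy hx.1) (inv_mem hy),
        fun j hj => ?_⟩).resolve_left fun e => hw' ?_
    · have := congrArg (cj y) (((mN x).1 hx).2 (y⁻¹ * j) (mul_mem (inv_mem hy) hj))
      simp only [cj_cj] at this ⊢
      rwa [mul_inv_cancel_left, show y * (x * (y⁻¹ * j)) = y * x * y⁻¹ * j by group] at this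
    · have := ((mN w).1 (e.ge hw)).2 1 (one_mem _)
      rwa [cj_one, cj_eq_iff] at this
  have h1 : ⁅zpowers c, J⁆ ≤ N := by
    rw [commutator_le]
    intro x hx y hy
    have hxJ : x ∈ normalizer (J : Set G) := zpowers_le.2 hcJ hx
    have hx' : ∀ j ∈ J, cj x (cj j U) = cj j U := fun j hj =>
      cj_eq_iff.2 (zpowers_le.2 (cj_eq_iff.1 (all j hj)) hx)
    have hx'' : ∀ j ∈ J, cj x⁻¹ (cj j U) = cj j U := fun j hj =>
      cj_eq_iff.2 (inv_mem (cj_eq_iff.1 (hx' j hj)))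
    refine (mN _).2 ⟨mul_mem ((mem_normalizer_iff.1 hxJ y).1 hy) (inv_mem hy), fun j hj => ?_⟩
    rw [commutatorElement_def, ← cj_cj, ← cj_cj, ← cj_cj, cj_cj y⁻¹,
      hx'' _ (mul_mem (inv_mem hy) hj), cj_cj y, mul_inv_cancel_left, hx' j hj]
  have h2 := H23.commutator_eq_bot_of_perfect (H := zpowers c)
    (H23.IsQuasisimple.commutator_self h.qs)
    (commutator_eq_bot_iff_le_centralizer.2 (h1.trans hN))
  exact commutator_eq_bot_iff_le_centralizer.1 h2 (mem_zpowers c)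

theorem aut' [Finite G] {g : G} (hg : g ∈ normalizer (J : Set G))
    (hc : g ∈ centralizer (U : Set G)) {n : ℕ} (hn : ¬ 3 ∣ n) (hgn : g ^ n = 1) :
    g ∈ centralizer (J : Set G) := by
  obtain ⟨u, hu, e⟩ := h.aut hg hc
  have hcm : Commute u⁻¹ g := (Commute.inv_left_iff).2 (mem_centralizer_iff.1 hc u hu)
  have h1 : (u ^ n)⁻¹ ∈ centralizer (J : Set G) := by
    have := pow_mem e n
    rwa [hcm.mul_pow, hgn, mul_one, inv_pow] at this
  have h2 := h.cen _ (pow_mem hu n) (by simpa using inv_mem h1)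
  obtain ⟨k, hk⟩ := h.pg ⟨u, hu⟩
  have := orderOf_eq_one_iff.1 (Nat.eq_one_of_dvd_coprimes
    (((Nat.Prime.coprime_iff_not_dvd Nat.prime_three).2 hn).pow_left k)
    (orderOf_dvd_of_pow_eq_one (congrArg Subtype.val hk)) (orderOf_dvd_of_pow_eq_one h2))
  rw [show u = 1 from this] at e
  simpa using e

theorem map {G' : Type*} [Group G'] {f : G →* G'} (hf : Function.Injective f) :
    L2 (J.map f) (U.map f) := by
  have hc : ∀ (A : Subgroup G) (x : G), f x ∈ centralizer (A.map f : Set G') ↔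
      x ∈ centralizer (A : Set G) := fun A x => by
    constructor
    · intro e y hy
      exact hf (by rw [map_mul, map_mul]; exact e _ ⟨y, hy, rfl⟩)
    · rintro e _ ⟨y, hy, rfl⟩
      rw [← map_mul, ← map_mul, e y hy]
  have hn : ∀ x : G, f x ∈ normalizer (U.map f : Set G') ↔ x ∈ normalizer (U : Set G) := fun x => by
    refine ⟨fun e => mem_normalizer_iff.2 fun y => ?_, fun e => le_normalizer_map f ⟨x, e, rfl⟩⟩
    rw [← mem_map_iff_mem (f := f) hf, mem_normalizer_iff.1 e, ← map_inv, ← map_mul, ← map_mul,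
      mem_map_iff_mem hf]
  refine ⟨(H23.isQuasisimple_map_iff hf J).2 h.qs, map_mono h.le, ?_, h.pg.map f, fun S hS hp => ?_,
    ?_, ?_, ?_, by rw [card_map_of_injective hf]; exact h.big, ?_⟩
  · rintro _ ⟨u, hu, rfl⟩ _ ⟨v, hv, rfl⟩
    rw [← map_mul, ← map_mul, h.comm u hu v hv]
  · obtain ⟨j, hj, e⟩ := h.syl (S.comap f) (fun x hx => (mem_map_iff_mem hf).1 (hS hx))
      (hp.comap_of_injective f hf)
    refine ⟨f j, ⟨j, hj, rfl⟩, ?_⟩
    rintro _ ⟨x, hx, rfl⟩
    obtain ⟨y, -, rfl⟩ := hS hx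
    exact ⟨j * y * j⁻¹, e (conj_mem_cj hx), by simp⟩
  · rintro _ ⟨u, hu, rfl⟩ e
    rw [h.cen u hu ((hc _ _).1 e), map_one]
  · obtain ⟨w, hw, hw', hb⟩ := h.bru
    refine ⟨f w, ⟨w, hw, rfl⟩, fun e => hw' ((hn w).1 e), ?_⟩
    rintro _ ⟨j, hj, rfl⟩
    rcases hb j hj with e | ⟨u, hu, e⟩
    · exact Or.inl ((hn j).2 e)
    · exact Or.inr ⟨f u, ⟨u, hu, rfl⟩, by simpa using (hn _).2 e⟩
  · rintro _ ⟨u, hu, rfl⟩ _ ⟨v, hv, rfl⟩ h1 h2
    obtain ⟨d, hd, hd', e⟩ := h.tor u hu v hv (fun e => h1 (by rw [e, map_one]))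
      (fun e => h2 (by rw [e, map_one]))
    refine ⟨f d, ⟨d, hd, rfl⟩, (hn d).2 hd', ?_⟩
    rcases e with e | e
    · left; rw [← e]; simp
    · right; rw [← map_inv f v, ← e]; simp
  · rintro _ ⟨i, hi, rfl⟩ _ ⟨j, hj, rfl⟩ h1 h2 h3 h4
    rw [card_map_of_injective hf, ← map_pow, hc] at h4
    rw [← map_mul, hc] at h1
    rw [hc] at h2 ⊢
    exact h.p3 i hi j hj h1 h2 (hf (by rw [map_mul, map_mul, h3])) h4

end L2

end H62.Hay
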